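import Cfsg.Agent.MonsterU.CoFrameF
import Cfsg.Agent.KFacts.Co1D4.TwoB
import Cfsg.Agent.StdG24.CloEnd

/-!
# `Co₁` (S4842): `9 ≤ |C(x)|` for every element `x`

* `fix_pow` : an element normalizing an elementary abelian 2-group `E`:
  `|C_E(x ^ 2 ^ k)| ≤ |C_E(x)| ^ 2 ^ k`;
* `sq_dvd_cent` : `p²` divides `|C(x)|` for a `p`-element `x` when `p² ∣ |G|`;
* `CoOne.two_elt` : `16 ≤ |C(x)|` for 2-elements `x` of `Co₁`;
* `CoOne.nine_dvd` : `9 ∣ |C(t)|` for the involutions `t` of `Co₁`;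
* `CoOne.nine_le` : `9 ≤ |C(x)|`.
-/

set_option autoImplicit false

open Cfsg Subgroup

namespace Cfsg.Agent.H593.OZ

universe u

section General

variable {G : Type u} [Group G] [Finite G]

/-- one squaring step -/
theorem fix_sq (E : Subgroup G) (habel : ∀ a ∈ E, ∀ b ∈ E, a * b = b * a)
    (hsq : ∀ a ∈ E, a * a = 1) (x : G) (hx : ∀ a ∈ E, x * a * x⁻¹ ∈ E) :
    Nat.card (E ⊓ centralizer {x ^ 2} : Subgroup G) ≤
      Nat.card (E ⊓ centralizer {x} : Subgroup G) ^ 2 := by
  set A : Subgroup G := E ⊓ centralizer {x ^ 2} with hA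
  set B : Subgroup G := E ⊓ centralizer {x} with hB
  have hAc : ∀ a ∈ A, x * (x * a * x⁻¹) * x⁻¹ = a := by
    intro a ha
    have h1 : a * x ^ 2 = x ^ 2 * a := mem_centralizer_singleton_iff.1 ha.2
    calc x * (x * a * x⁻¹) * x⁻¹ = x ^ 2 * a * (x ^ 2)⁻¹ := by rw [pow_two]; group
      _ = a := by rw [← h1]; group
  let φ : A →* G :=
    { toFun := fun a => (a : G) * (x * (a : G) * x⁻¹)
      map_one' := by simp
      map_mul' := fun a b => by
        have h1 : (b : G) * (x * (a : G) * x⁻¹) = (x * (a : G) * x⁻¹) * b :=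
          habel _ b.2.1 _ (hx _ a.2.1)
        show (a : G) * b * (x * ((a : G) * b) * x⁻¹) = (a : G) * (x * a * x⁻¹) * (b * (x * b * x⁻¹))
        calc (a : G) * b * (x * ((a : G) * b) * x⁻¹) = (a : G) * (b * (x * a * x⁻¹)) * (x * b * x⁻¹) := by group
          _ = _ := by rw [h1]; group }
  have hφ : ∀ a : A, φ a = (a : G) * (x * (a : G) * x⁻¹) := fun _ => rfl
  have hrange : φ.range ≤ B := by
    rintro _ ⟨a, rfl⟩
    refine ⟨?_, ?_⟩
    · show φ a ∈ E
      rw [hφ]
      exact E.mul_mem a.2.1 (hx _ a.2.1)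
    · show φ a ∈ centralizer {x}
      rw [mem_centralizer_singleton_iff, hφ]
      have h1 := hAc _ a.2
      have h2 : (a : G) * (x * (a : G) * x⁻¹) = (x * (a : G) * x⁻¹) * a := habel _ a.2.1 _ (hx _ a.2.1)
      calc (a : G) * (x * (a : G) * x⁻¹) * x = (x * (a : G) * x⁻¹) * a * x := by rw [h2]
        _ = (x * (a : G) * x⁻¹) * (x * (x * (a : G) * x⁻¹) * x⁻¹) * x := by rw [h1]
        _ = x * ((a : G) * (x * (a : G) * x⁻¹)) := by group
  have hker : φ.ker.map A.subtype ≤ B := by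
    rintro _ ⟨a, ha, rfl⟩
    refine ⟨a.2.1, ?_⟩
    show (a : G) ∈ centralizer {x}
    rw [mem_centralizer_singleton_iff]
    have h1 : (a : G) * (x * (a : G) * x⁻¹) = 1 := ha
    have h2 : x * (a : G) * x⁻¹ = a := by
      calc x * (a : G) * x⁻¹ = (a : G)⁻¹ * ((a : G) * (x * (a : G) * x⁻¹)) := by group
        _ = (a : G)⁻¹ := by rw [h1, mul_one]
        _ = a := (eq_inv_of_mul_eq_one_left (hsq _ a.2.1)).symm
    calc (a : G) * x = x * (a : G) * x⁻¹ * x := by rw [h2]
      _ = x * a := by group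
  have h1 : Nat.card φ.range ≤ Nat.card B := Subgroup.card_le_of_le hrange
  have h2 : Nat.card φ.ker ≤ Nat.card B := by
    rw [Nat.card_congr (φ.ker.equivMapOfInjective A.subtype A.subtype_injective).toEquiv]
    exact Subgroup.card_le_of_le hker
  have h3 : Nat.card φ.ker * Nat.card φ.range = Nat.card A := by
    rw [← Nat.card_congr (QuotientGroup.quotientKerEquivRange φ).toEquiv]
    exact φ.ker.card_mul_index
  rw [← h3, pow_two]
  exact Nat.mul_le_mul h2 h1

/-- `|C_E(x ^ 2 ^ k)| ≤ |C_E(x)| ^ 2 ^ k` -/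
theorem fix_pow (E : Subgroup G) (habel : ∀ a ∈ E, ∀ b ∈ E, a * b = b * a)
    (hsq : ∀ a ∈ E, a * a = 1) (k : ℕ) : ∀ (x : G), (∀ a ∈ E, x * a * x⁻¹ ∈ E) →
    Nat.card (E ⊓ centralizer {x ^ 2 ^ k} : Subgroup G) ≤
      Nat.card (E ⊓ centralizer {x} : Subgroup G) ^ 2 ^ k := by
  induction k with
  | zero => intro x _; simp
  | succ k ih =>
    intro x hx
    have h1 : x ^ 2 ^ (k + 1) = (x ^ 2) ^ 2 ^ k := by rw [← pow_mul, pow_succ']
    rw [h1]
    refine (ih (x ^ 2) fun a ha => ?_).trans ?_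
    · have h2 := hx _ (hx a ha)
      have h3 : x ^ 2 * a * (x ^ 2)⁻¹ = x * (x * a * x⁻¹) * x⁻¹ := by rw [pow_two]; group
      rwa [h3]
    · rw [pow_succ' 2 k, pow_mul]
      exact Nat.pow_le_pow_left (fix_sq E habel hsq x hx) _

/-- `p ^ 2 ∣ |C(x)|` for `p`-elements -/
theorem sq_dvd_cent {p : ℕ} [hp : Fact p.Prime] (h : p ^ 2 ∣ Nat.card G) {x : G}
    (hx : ∃ i : ℕ, x ^ p ^ i = 1) : p ^ 2 ∣ Nat.card (centralizer ({x} : Set G)) := by
  have h1 : IsPGroup p (Subgroup.zpowers x) := by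
    rintro ⟨y, hy⟩
    obtain ⟨k, rfl⟩ := hy
    obtain ⟨i, hi⟩ := hx
    refine ⟨i, ?_⟩
    apply Subtype.ext
    rw [Subgroup.coe_pow, Subgroup.coe_one]
    show (x ^ k) ^ p ^ i = 1
    rw [← zpow_natCast, ← zpow_mul, mul_comm, zpow_mul, zpow_natCast, hi, one_zpow]
  obtain ⟨P, hP⟩ := h1.exists_le_sylow
  have hxP : x ∈ (P : Subgroup G) := hP (Subgroup.mem_zpowers x)
  have h2 : p ^ 2 ∣ Nat.card P := P.pow_dvd_card_of_pow_dvd_card h
  set x' : P := ⟨x, hxP⟩
  -- the centralizer in `P`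
  have h3 : Nat.card (centralizer ({x'} : Set P)) ∣ Nat.card (centralizer ({x} : Set G)) := by
    have h4 : (centralizer ({x'} : Set P)).map (P : Subgroup G).subtype ≤ centralizer ({x} : Set G) := by
      rintro _ ⟨y, hy, rfl⟩
      rw [mem_centralizer_singleton_iff]
      exact congrArg Subtype.val (mem_centralizer_singleton_iff.1 hy)
    have h5 := Subgroup.card_dvd_of_le h4
    rwa [← Nat.card_congr ((centralizer ({x'} : Set P)).equivMapOfInjective (P : Subgroup G).subtype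
      (P : Subgroup G).subtype_injective).toEquiv] at h5
  refine dvd_trans ?_ h3
  have hPp : IsPGroup p P := P.isPGroup'
  obtain ⟨n, hn⟩ := (hPp.to_subgroup (centralizer ({x'} : Set P))).exists_card_eq
  rw [hn]
  apply pow_dvd_pow
  by_contra hlt
  rw [not_le] at hlt
  have hc1 : Subgroup.center P ≤ centralizer ({x'} : Set P) := Subgroup.center_le_centralizer _
  have hnt : Nontrivial P := by
    rw [← Finite.one_lt_card_iff_nontrivial]
    exact lt_of_lt_of_le (Nat.one_lt_pow (by norm_num) hp.out.one_lt) (Nat.le_of_dvd Nat.card_pos h2)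
  have hcn : Nontrivial (Subgroup.center P) := hPp.center_nontrivial
  obtain ⟨m, hm⟩ := (hPp.to_subgroup (Subgroup.center P)).exists_card_eq
  have hm0 : m ≠ 0 := by
    rintro rfl
    rw [pow_zero] at hm
    exact absurd (Finite.one_lt_card_iff_nontrivial.2 hcn) (by rw [hm]; norm_num)
  have hle : p ^ m ≤ p ^ n := by rw [← hm, ← hn]; exact Subgroup.card_le_of_le hc1
  have hmn : m ≤ n := (Nat.pow_le_pow_iff_right hp.out.one_lt).1 hle
  have hn1 : n = 1 := by omega
  have hm1 : m = 1 := by omega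
  have heq : Subgroup.center P = centralizer ({x'} : Set P) :=
    Subgroup.eq_of_le_of_card_ge hc1 (by rw [hm, hn, hn1, hm1])
  have hxc : x' ∈ Subgroup.center P := by
    rw [heq, mem_centralizer_singleton_iff]
  have htop : centralizer ({x'} : Set P) = ⊤ := by
    rw [eq_top_iff]
    intro y _
    rw [mem_centralizer_singleton_iff]
    exact (Subgroup.mem_center_iff.1 hxc y)
  rw [htop, Subgroup.card_top, hn1, pow_one] at hn
  rw [hn] at h2
  have := Nat.le_of_dvd hp.out.pos h2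
  have h6 : p < p ^ 2 := by
    calc p = p ^ 1 := (pow_one p).symm
      _ < p ^ 2 := Nat.pow_lt_pow_right hp.out.one_lt (by norm_num)
  omega

omit [Finite G] in
theorem card_cent_of_conj {x y c : G} (h : c * x * c⁻¹ = y) :
    Nat.card (centralizer ({x} : Set G)) = Nat.card (centralizer ({y} : Set G)) := by
  have h1 : (centralizer ({x} : Set G)).map (MulAut.conj c).toMonoidHom = centralizer ({y} : Set G) := by
    ext g
    constructor
    · rintro ⟨a, ha, rfl⟩
      have h2 : a * x = x * a := mem_centralizer_singleton_iff.1 ha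
      rw [mem_centralizer_singleton_iff, ← h]
      show c * a * c⁻¹ * (c * x * c⁻¹) = c * x * c⁻¹ * (c * a * c⁻¹)
      calc c * a * c⁻¹ * (c * x * c⁻¹) = c * (a * x) * c⁻¹ := by group
        _ = c * x * c⁻¹ * (c * a * c⁻¹) := by rw [h2]; group
    · intro hg
      have h2 : g * y = y * g := mem_centralizer_singleton_iff.1 hg
      refine ⟨c⁻¹ * g * c, ?_, ?_⟩
      · show c⁻¹ * g * c ∈ centralizer ({x} : Set G)
        rw [mem_centralizer_singleton_iff]
        have h3 : x = c⁻¹ * y * c := by rw [← h]; group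
        rw [h3]
        calc c⁻¹ * g * c * (c⁻¹ * y * c) = c⁻¹ * (g * y) * c := by group
          _ = c⁻¹ * y * c * (c⁻¹ * g * c) := by rw [h2]; group
      · show c * (c⁻¹ * g * c) * c⁻¹ = g
        group
  rw [← h1]
  exact Nat.card_congr ((centralizer ({x} : Set G)).equivMapOfInjective _ (MulAut.conj c).injective).toEquiv

end General

namespace CoOne

open Cfsg.Spor Cfsg.Agent.MonsterU.CoFrameF
open Cfsg.Agent.CoOneType.CoOneE (E card_E pr pr_surjective)
open Cfsg.Agent.SporadicA.Co0Mono Cfsg.Agent.SporadicA.Co1Simple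
open Cfsg.Agent.SporadicStructure.M24El
open Cfsg.Agent.CoOneType.SignFacts (wt)

theorem finite_Co1 : Finite Spor.Co1 := (Nat.card_pos_iff.1 (by rw [card_Co1]; norm_num)).2

/-- a 2-element lies in a conjugate of `F` -/
theorem exists_conj_F {g : Spor.Co1} (hg : ∃ i : ℕ, g ^ 2 ^ i = 1) : ∃ c : Spor.Co1, c⁻¹ * g * c ∈ F := by
  have hfG := finite_Co1
  have : Fact (Nat.Prime 2) := ⟨Nat.prime_two⟩
  have h1 : IsPGroup 2 (Subgroup.zpowers g) := by
    rintro ⟨y, hy⟩
    obtain ⟨k, rfl⟩ := hy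
    obtain ⟨i, hi⟩ := hg
    refine ⟨i, ?_⟩
    apply Subtype.ext
    rw [Subgroup.coe_pow, Subgroup.coe_one]
    show (g ^ k) ^ 2 ^ i = 1
    rw [← zpow_natCast, ← zpow_mul, mul_comm, zpow_mul, zpow_natCast, hi, one_zpow]
  have h2 : ¬ 2 ∣ Nat.card (Spor.Co1 ⧸ F) := by
    have h3 := index_F
    unfold Subgroup.index at h3
    rw [h3]; norm_num
  obtain ⟨a, ha⟩ := h1.nonempty_fixed_point_of_prime_not_dvd_card (Spor.Co1 ⧸ F) h2
  obtain ⟨c, rfl⟩ := QuotientGroup.mk_surjective a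
  refine ⟨c, ?_⟩
  have h3 := ha ⟨g, Subgroup.mem_zpowers g⟩
  have h4 : (QuotientGroup.mk (g * c) : Spor.Co1 ⧸ F) = QuotientGroup.mk c := h3
  rw [QuotientGroup.eq] at h4
  have h5 := F.inv_mem h4
  simpa [mul_assoc] using h5

theorem two_elt_F {g : Spor.Co1} (hF : g ∈ F) (hg : ∃ i : ℕ, g ^ 2 ^ i = 1) :
    16 ≤ Nat.card (centralizer ({g} : Set Spor.Co1)) := by
  classical
  have hfG := finite_Co1
  have hex : ∃ k : ℕ, g ^ 2 ^ k ∈ E := by
    obtain ⟨i, hi⟩ := hg
    exact ⟨i, by rw [hi]; exact E.one_mem⟩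
  set k := Nat.find hex with hk
  have hkE : g ^ 2 ^ k ∈ E := Nat.find_spec hex
  have hmin : ∀ m < k, g ^ 2 ^ m ∉ E := fun m hm => Nat.find_min hex hm
  set D : Subgroup Spor.Co1 := E ⊓ centralizer {g} with hD
  set H : Subgroup Spor.Co1 := centralizer {g} with hH
  -- `|E| ≤ |D| ^ 2 ^ k`
  have h1 : 2048 ≤ Nat.card D ^ 2 ^ k := by
    have h2 := fix_pow E (fun a ha b hb => comm_of_mem_E ha hb) (fun a ha => sq_of_mem_E ha) k g
      (fun a ha => conj_mem_E hF ha)
    have h3 : (E ⊓ centralizer {g ^ 2 ^ k} : Subgroup Spor.Co1) = E := by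
      refine inf_eq_left.2 fun a ha => ?_
      rw [mem_centralizer_singleton_iff]
      exact comm_of_mem_E ha hkE
    rw [h3, card_E] at h2
    exact h2
  -- the image of `g` in `M24` has order `2 ^ k`
  set g' : F := ⟨g, hF⟩ with hg'
  have hpow : ∀ n : ℕ, (toM24 g') ^ n = 1 ↔ g ^ n ∈ E := by
    intro n
    rw [← map_pow, toM24_eq_one_iff]
    rfl
  have hord : orderOf (toM24 g') = 2 ^ k := by
    rcases Nat.eq_zero_or_pos k with h0 | h0
    · rw [h0, pow_zero, orderOf_eq_one_iff]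
      have h2 := hkE
      rw [h0, pow_zero] at h2
      have h3 := (hpow 1).2 h2
      rwa [pow_one] at h3
    · obtain ⟨m, hm⟩ : ∃ m, k = m + 1 := ⟨k - 1, by omega⟩
      have : Fact (Nat.Prime 2) := ⟨Nat.prime_two⟩
      rw [hm]
      apply orderOf_eq_prime_pow
      · rw [hpow]
        exact hmin m (by omega)
      · rw [hpow, ← hm]
        exact hkE
  -- `2 ^ k * |D| ≤ |H|`
  have h2 : 2 ^ k * Nat.card D ≤ Nat.card H := by
    have hinj : Function.Injective (fun p : Fin (2 ^ k) × D =>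
        (⟨g ^ (p.1 : ℕ) * (p.2 : Spor.Co1), H.mul_mem (H.pow_mem (by
          rw [hH, mem_centralizer_singleton_iff]) _) p.2.2.2⟩ : H)) := by
      rintro ⟨⟨i, hi⟩, d⟩ ⟨⟨j, hj⟩, e⟩ hab
      have h3 : g ^ i * (d : Spor.Co1) = g ^ j * (e : Spor.Co1) := congrArg Subtype.val hab
      have h4 : (toM24 g') ^ i = (toM24 g') ^ j := by
        rw [← map_pow, ← map_pow]
        have h5 : toM24 ((g' ^ j)⁻¹ * g' ^ i) = 1 := by
          rw [toM24_eq_one_iff]
          show (g ^ j)⁻¹ * g ^ i ∈ E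
          have h6 : (g ^ j)⁻¹ * g ^ i = e * (d : Spor.Co1)⁻¹ := by
            rw [inv_mul_eq_iff_eq_mul, ← mul_assoc, ← h3]; group
          rw [h6]
          exact E.mul_mem e.2.1 (E.inv_mem d.2.1)
        rw [map_mul, map_inv, inv_mul_eq_one] at h5
        exact h5.symm
      have h5 : i = j := pow_injOn_Iio_orderOf (by rw [Set.mem_Iio, hord]; exact hi)
        (by rw [Set.mem_Iio, hord]; exact hj) h4
      subst h5
      have h6 : d = e := Subtype.ext (mul_left_cancel h3)
      rw [h6]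
    have h3 := Nat.card_le_card_of_injective _ hinj
    rwa [Nat.card_prod, Nat.card_fin] at h3
  refine le_trans ?_ h2
  -- arithmetic
  set n := Nat.card D
  have hn : 0 < n := Nat.card_pos
  by_contra hlt
  rw [not_le] at hlt
  have hk4 : k < 4 := by
    by_contra hk4
    rw [not_lt] at hk4
    have h3 : 2 ^ 4 ≤ 2 ^ k := Nat.pow_le_pow_right (by norm_num) hk4
    have h4 : 2 ^ k * 1 ≤ 2 ^ k * n := Nat.mul_le_mul_left _ hn
    omega
  have hn16 : n < 16 := by
    have h3 : 1 * n ≤ 2 ^ k * n := Nat.mul_le_mul_right _ Nat.one_le_two_pow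
    omega
  clear_value n
  clear h2 hord hkE hmin hk
  clear_value k
  interval_cases k <;> interval_cases n <;> revert h1 hlt <;> norm_num

/-- `16 ≤ |C(x)|` for 2-elements -/
theorem two_elt {g : Spor.Co1} (hg : ∃ i : ℕ, g ^ 2 ^ i = 1) :
    16 ≤ Nat.card (centralizer ({g} : Set Spor.Co1)) := by
  have hfG := finite_Co1
  obtain ⟨c, hc⟩ := exists_conj_F hg
  rw [card_cent_of_conj (x := g) (y := c⁻¹ * g * c) (c := c⁻¹) (by group)]
  refine two_elt_F hc ?_
  obtain ⟨i, hi⟩ := hg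
  refine ⟨i, ?_⟩
  have h1 : (c⁻¹ * g * c) ^ 2 ^ i = c⁻¹ * g ^ 2 ^ i * c := by
    have h2 := conj_pow (i := 2 ^ i) (a := c⁻¹) (b := g)
    rwa [inv_inv] at h2
  rw [h1, hi]; group

section nine

open Cfsg.Agent.SporadicA.GolayBase Cfsg.Agent.SporadicA.GolayPerm
open Cfsg.Agent.CoOneType.SignFacts Cfsg.Agent.CoOneType.CoOneE
open Cfsg.Agent.CoOneType.ClosingFacts Cfsg.Agent.CoOneType.Thirteen
open scoped Pointwise

variable {c : golayCode}

noncomputable local instance : MulAction N Co0 :=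
  MulAction.compHom Co0 ((MulAut.conj : Co0 →* MulAut Co0).comp N.subtype)

theorem card_stabilizer_dvd (h : wt c = 8 ∨ wt c = 12) :
    9 ∣ Nat.card (MulAction.stabilizer N (signCo0 c)) := by
  have h1 := (MulAction.stabilizer N (signCo0 c)).card_mul_index
  rw [MulAction.index_stabilizer, StdG24.CloEnd.orbit_eq h, Cfsg.Agent.S0399.card_N,
    Set.ncard_image_of_injective _ (fun a b h => StdG24.CloEnd.sign_inj h)] at h1
  rcases h with h | h
  · rw [h, StdG24.CloEnd.ncard_wt8] at h1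
    have h2 : Nat.card (MulAction.stabilizer N (signCo0 c)) = 4096 * 322560 := by omega
    rw [h2]; norm_num
  · rw [h, StdG24.CloEnd.ncard_wt12] at h1
    have h2 : Nat.card (MulAction.stabilizer N (signCo0 c)) = 4096 * 95040 := by omega
    rw [h2]; norm_num

/-- `9` divides the orders of the centralisers in `Co1` of the sign changes. -/
theorem sign_dvd (h : wt c = 8 ∨ wt c = 12) :
    9 ∣ Nat.card (Subgroup.centralizer ({mk (signCo0 c)} : Set Co1)) := by
  have : Finite Co1 := Quotient.finite _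
  let S := MulAction.stabilizer N (signCo0 c)
  let f : S →* Co1 := (QuotientGroup.mk' (Subgroup.center Co0)).comp (N.subtype.comp S.subtype)
  have hS : ∀ x : S, ((x : N) : Co0) * signCo0 c = signCo0 c * ((x : N) : Co0) := by
    intro x
    have h1 : ((x : N) : Co0) * signCo0 c * ((x : N) : Co0)⁻¹ = signCo0 c := x.2
    calc ((x : N) : Co0) * signCo0 c = ((x : N) : Co0) * signCo0 c * ((x : N) : Co0)⁻¹ * x := by
          group
      _ = _ := by rw [h1]
  have hker : Nat.card f.ker ≤ 2 := by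
    have h1 : Set.MapsTo (fun x : S => ((x : N) : Co0)) (f.ker : Set S)
        ({1, signCo0 allOne} : Set Co0) := by
      intro x hx
      have h2 : mk ((x : N) : Co0) = 1 := hx
      exact (Cfsg.Agent.CoOneType.ClosingFacts.mk_eq_one _).1 h2
    have h2 := Set.ncard_le_ncard_of_injOn _ h1
      ((Subtype.val_injective.comp Subtype.val_injective).injOn) (Set.toFinite _)
    exact (Nat.card_coe_set_eq _).trans_le (h2.trans (Set.ncard_insert_le _ _ |>.trans
      (by rw [Set.ncard_singleton])))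
  have hrange : Nat.card f.range ∣ Nat.card (Subgroup.centralizer ({mk (signCo0 c)} : Set Co1)) := by
    apply Subgroup.card_dvd_of_le
    rintro _ ⟨x, rfl⟩
    rw [Subgroup.mem_centralizer_singleton_iff]
    exact congrArg mk (hS x)
  have hmul : Nat.card f.range * Nat.card f.ker = Nat.card S := by
    rw [← Nat.card_congr (QuotientGroup.quotientKerEquivRange f).toEquiv, mul_comm]
    exact f.ker.card_mul_index
  have h1 := card_stabilizer_dvd h
  refine Dvd.dvd.trans ?_ hrange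
  have h2 : 9 ∣ Nat.card f.range * Nat.card f.ker := by rw [hmul]; exact h1
  have h3 : 0 < Nat.card f.ker := Nat.card_pos
  have h4 : Nat.card f.ker = 1 ∨ Nat.card f.ker = 2 := by omega
  rcases h4 with h4 | h4
  · rwa [h4, mul_one] at h2
  · rw [h4] at h2
    omega

theorem w_dvd : 9 ∣ Nat.card (Subgroup.centralizer ({KFacts.Co1D4.TwoB.w} : Set Co1)) := by
  have h1 : KFacts.Co1D4.GTwo.L ≤ Subgroup.centralizer ({KFacts.Co1D4.TwoB.w} : Set Co1) := by
    intro l hl
    rw [Subgroup.mem_centralizer_singleton_iff]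
    exact KFacts.Co1D4.TwoB.Lw l hl
  have h2 := Subgroup.card_dvd_of_le h1
  rw [KFacts.Co1D4.GTwo.card_L] at h2
  exact dvd_trans (by norm_num) h2

/-- `9 ∣ |C(t)|` for the involutions of `Co₁`. -/
theorem nine_dvd {t : Spor.Co1} (ht : t * t = 1) (h1 : t ≠ 1) :
    9 ∣ Nat.card (Subgroup.centralizer ({t} : Set Spor.Co1)) := by
  rcases KFacts.Co1D4.Base.cases t ht h1 with ⟨g, c, hc, hg⟩ | ⟨g, c, hc, hg⟩ | ⟨g, hg⟩
  · rw [← card_cent_of_conj hg]
    exact sign_dvd (Or.inl hc)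
  · rw [← card_cent_of_conj hg]
    exact sign_dvd (Or.inr hc)
  · obtain ⟨g', hg'⟩ := KFacts.Co1D4.TwoB.conj_w g
    rw [hg] at hg'
    rw [← card_cent_of_conj hg'.symm]
    exact w_dvd

end nine

/-- **`9 ≤ |C(x)|` in `Co₁`.** -/
theorem nine_le (x : Spor.Co1) : 9 ≤ Nat.card (centralizer ({x} : Set Spor.Co1)) := by
  have hfG := finite_Co1
  by_contra hlt
  rw [not_le] at hlt
  set H : Subgroup Spor.Co1 := centralizer {x} with hH
  have hxH : x ∈ H := by rw [hH, mem_centralizer_singleton_iff]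
  set c := Nat.card H with hc
  have hc0 : 0 < c := Nat.card_pos
  have hord : orderOf x ∣ c := by
    have h1 := orderOf_dvd_natCard (⟨x, hxH⟩ : H)
    rwa [Subgroup.orderOf_mk] at h1
  -- `p`-elements with `p ^ 2 ∣ |G|`
  have key : ∀ p : ℕ, p.Prime → p ^ 2 ∣ 4157776806543360000 → (∃ i : ℕ, x ^ p ^ i = 1) → p ^ 2 ∣ c := by
    intro p hp hd hx
    have : Fact p.Prime := ⟨hp⟩
    exact sq_dvd_cent (by rw [card_Co1]; exact hd) hx
  have hpow : x ^ c = 1 := orderOf_dvd_iff_pow_eq_one.1 hord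
  have h2 : ∀ i : ℕ, c ≠ 2 ^ i := by
    intro i hi
    have h3 : 16 ≤ c := two_elt (g := x) ⟨i, by rw [← hi]; exact hpow⟩
    omega
  have hx2 : ¬ ∃ i : ℕ, x ^ 2 ^ i = 1 := fun h => by
    have h3 : 16 ≤ c := two_elt h
    omega
  have hc1 := h2 0
  have hc2 := h2 1
  have hc4 := h2 2
  have hc8 := h2 3
  norm_num at hc1 hc2 hc4 hc8
  have h357 : c = 3 ∨ c = 5 ∨ c = 6 ∨ c = 7 := by omega
  rcases h357 with h | h | h | h
  · have h3 := key 3 (by norm_num) (by norm_num) ⟨1, by rw [pow_one, ← h]; exact hpow⟩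
    rw [h] at h3
    norm_num at h3
  · have h3 := key 5 (by norm_num) (by norm_num) ⟨1, by rw [pow_one, ← h]; exact hpow⟩
    rw [h] at h3
    norm_num at h3
  · -- `c = 6`
    rw [h] at hpow
    have hx3 : ¬ x ^ 3 = 1 := fun h3 => by
      have h4 := key 3 (by norm_num) (by norm_num) ⟨1, by rw [pow_one]; exact h3⟩
      rw [h] at h4
      norm_num at h4
    set t : Spor.Co1 := x ^ 3 with ht
    set s : Spor.Co1 := x ^ 4 with hs
    have htt : t * t = 1 := by rw [ht, ← pow_add]; exact hpow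
    have hs3 : s ^ 3 = 1 := by
      rw [hs, ← pow_mul, show 4 * 3 = 6 * 2 by norm_num, pow_mul, hpow, one_pow]
    have hst : x = s * t := by
      rw [hs, ht, ← pow_add, show 4 + 3 = 6 + 1 by norm_num, pow_add, hpow, one_mul, pow_one]
    have hst' : s * t = t * s := by rw [hs, ht, ← pow_add, ← pow_add]
    have h9 := nine_dvd htt hx3
    -- in `C(t)`
    set T : Subgroup Spor.Co1 := centralizer {t} with hT
    have hsT : s ∈ T := by rw [hT, mem_centralizer_singleton_iff]; exact hst'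
    have : Fact (Nat.Prime 3) := ⟨Nat.prime_three⟩
    have h5 : 3 ^ 2 ∣ Nat.card (centralizer ({(⟨s, hsT⟩ : T)} : Set T)) :=
      sq_dvd_cent (by norm_num; exact h9) ⟨1, Subtype.ext (by
        rw [Subgroup.coe_pow, pow_one]; exact hs3)⟩
    have h6 : (centralizer ({(⟨s, hsT⟩ : T)} : Set T)).map T.subtype ≤ H := by
      rintro _ ⟨y, hy, rfl⟩
      have h7 : (y : Spor.Co1) * s = s * y := congrArg Subtype.val (mem_centralizer_singleton_iff.1 hy)
      have h8 : (y : Spor.Co1) * t = t * y := mem_centralizer_singleton_iff.1 y.2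
      rw [hH, mem_centralizer_singleton_iff, hst]
      show (y : Spor.Co1) * (s * t) = s * t * y
      rw [← mul_assoc, h7, mul_assoc, h8, mul_assoc]
    have h7 := Subgroup.card_dvd_of_le h6
    rw [← Nat.card_congr ((centralizer ({(⟨s, hsT⟩ : T)} : Set T)).equivMapOfInjective T.subtype
      T.subtype_injective).toEquiv] at h7
    have h8 := dvd_trans h5 h7
    rw [← hc, h] at h8
    norm_num at h8
  · have h3 := key 7 (by norm_num) (by norm_num) ⟨1, by rw [pow_one, ← h]; exact hpow⟩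
    rw [h] at h3
    norm_num at h3

end CoOne

end Cfsg.Agent.H593.OZ
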