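import Cfsg.Agent.H153.Dl.B24.X
import Cfsg.Agent.H845.T13Data

/-!
# `Fi24` : two conjugating words (helper593, for S4842)

Generated data: `w13` conjugates the element `H845.T13.x` of order 13 to its square, `w27` conjugates the element
`H153.Dl.B24.D.x` of order 27 to its square; both are even words.
-/

set_option autoImplicit false
set_option maxRecDepth 100000
set_option Elab.async false

namespace Cfsg.Agent.H593.OZ.Fi24W

open Cfsg Cfsg.Agent.Lib.PermNetPt Cfsg.Agent.H153.Dl Cfsg.Agent.H153.Dl.PR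
open Cfsg.Spor.Fi24 (Gen)

def w13 : List Gen := [.i, .c, .d, .h, .f, .e, .d, .c, .b, .a, .c, .d, .e, .f, .g, .i, .h, .d, .e, .c, .d, .h, .i, .f, .d, .e, .b, .c, .d, .h, .j, .g, .f, .e, .d, .c, .b, .a, .k, .i, .h, .e, .d, .c, .b, .a, .c, .d, .h, .b, .c, .d, .e, .f, .g, .j, .d, .e, .f, .g, .c, .d, .e, .b, .c, .d, .h, .f, .e, .c, .d, .c, .b, .a, .k, .i, .h, .e, .f, .d, .e, .c, .d, .h, .i, .f, .d, .e, .b, .c, .d, .h, .g, .f, .e, .d, .c, .b, .a, .j, .h, .i, .f, .d, .c, .b]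

def w27 : List Gen := [.l, .e, .d, .i, .c, .d, .h, .e, .f, .b, .c, .d, .e, .a, .b, .c, .d, .h, .i, .h, .f, .d, .e, .b, .c, .d, .h, .g, .f, .e, .d, .c, .b, .a, .k, .e, .c, .d, .h, .f, .g, .d, .e, .f, .c, .d, .e, .a, .b, .c, .d, .h, .i, .h, .f, .g, .e, .f, .d, .e, .b, .c, .d, .h, .j, .g, .f, .e, .d, .c, .b, .a, .f, .d, .e, .c, .d, .h, .j, .f, .g, .d, .e, .f, .c, .d, .e, .b, .c, .d, .h, .i, .j, .g, .f, .d, .e, .c, .d, .h, .f, .g, .j, .b, .c, .d, .e, .f, .g, .d, .e, .c, .d, .h, .c, .d, .e, .f, .c, .d, .e, .c]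

theorem c13 : R24.chkEq (w13 ++ H845.T13Data.wx) (rep 2 H845.T13Data.wx ++ w13) = true := by decide +kernel

theorem c27 : R24.chkEq (w27 ++ B24.xw) (rep 2 B24.xw ++ w27) = true := by decide +kernel

theorem o27 : R24.chkEq (rep 27 B24.xw) [] = true := by decide +kernel

theorem e13 : w13.length % 2 = 0 := by decide +kernel

theorem e27 : w27.length % 2 = 0 := by decide +kernel

end Cfsg.Agent.H593.OZ.Fi24W
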