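import Cfsg.Agent.H849.OZ.TFive
import Cfsg.Agent.H849.OZ.Bad

/-!
# One vanishing class: primes dividing the group order once, `|C(z) ∩ C(t)| ≤ 2 p` (helper593, for S4842)

`mod_of_invol` : if an involution `t` commutes with an element `z` of order `p ≥ 7`, `p ∥ |G|`, and
`|C(z) ∩ C(t)| ≤ 2 p`, then a `OneZero` character whose zeros are `p`-regular has degree `± 1` modulo `p`.
-/

set_option autoImplicit false
set_option linter.unusedSectionVars false

namespace Cfsg.Agent.H593.OZ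

open Cfsg Subgroup Finset
open Cfsg.Agent.Characters Cfsg.Agent.Characters.Core Cfsg.Agent.H686.CharKit
open Cfsg.Agent.SmallSimple.ThetaSetup Cfsg.Agent.SmallSimple.ThetaOrtho Cfsg.Agent.SmallSimple.ThetaCount
open Cfsg.Agent.SmallSimple.TheoremC Cfsg.Agent.SmallSimple.TheoremCCor
open Cfsg.Agent.H732.VZ (One)
open scoped ComplexConjugate

universe u

section lin

variable {A : Type u} [Group A] [Finite A] {t : A}

/-- The value of an irreducible character at an involution is an integer. -/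
theorem exists_int_invol (ht : orderOf t = 2) (θ : IrrCharacter A) : ∃ k : ℤ, (θ : A → ℂ) t = k := by
  refine H849.OZ.rat (χ := θ) (y := t) fun m hm => ?_
  have h2 : 2 ∣ Nat.card A := ht ▸ _root_.orderOf_dvd_natCard t
  have hodd : ¬ 2 ∣ m := fun h => by
    have := Nat.dvd_gcd h h2
    rw [hm] at this
    omega
  have h1 : t ^ m = t := by
    conv_rhs => rw [← pow_one t]
    rw [pow_eq_pow_iff_modEq, ht, Nat.ModEq]
    omega
  rw [h1]

/-- Two non-principal characters not vanishing at `t` are equal if `|C(t)| ≤ 2`. -/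
theorem eq_of_invol (ht : orderOf t = 2) (hC : Nat.card (centralizer ({t} : Set A)) ≤ 2) {θ₁ θ₂ : IrrCharacter A}
    (h1 : (θ₁ : A → ℂ) t ≠ 0) (h2 : (θ₂ : A → ℂ) t ≠ 0) (n1 : (θ₁ : A → ℂ) ≠ 1) (n2 : (θ₂ : A → ℂ) ≠ 1) : θ₁ = θ₂ := by
  classical
  by_contra hne
  have : Finite (IrrCharacter A) := finite_irr
  have := Fintype.ofFinite (IrrCharacter A)
  have hs := sum_normSq (G := A) t
  have hge : ∀ θ : IrrCharacter A, (θ : A → ℂ) t ≠ 0 → 1 ≤ Complex.normSq ((θ : A → ℂ) t) := by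
    intro θ hθ
    obtain ⟨k, hk⟩ := exists_int_invol ht θ
    rw [hk] at hθ ⊢
    have hk0 : k ≠ 0 := fun h => hθ (by rw [h, Int.cast_zero])
    have e : Complex.normSq (k : ℂ) = ((k * k : ℤ) : ℝ) := by
      rw [← Complex.ofReal_intCast, Complex.normSq_ofReal]
      push_cast
      ring
    rw [e]
    have : 1 ≤ k * k := by
      have := mul_self_pos.2 hk0
      omega
    exact_mod_cast this
  let o : IrrCharacter A := ⟨1, isIrr_one⟩
  have ho : (o : A → ℂ) t ≠ 0 := by
    change (1 : A → ℂ) t ≠ 0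
    simp
  have e1 : o ≠ θ₁ := fun h => n1 (by rw [← h])
  have e2 : o ≠ θ₂ := fun h => n2 (by rw [← h])
  have h3 : ∑ θ ∈ ({o, θ₁, θ₂} : Finset (IrrCharacter A)), Complex.normSq ((θ : A → ℂ) t)
      ≤ ∑ θ : IrrCharacter A, Complex.normSq ((θ : A → ℂ) t) :=
    Finset.sum_le_sum_of_subset_of_nonneg (Finset.subset_univ _) fun _ _ _ => Complex.normSq_nonneg _
  rw [Finset.sum_insert (by simp [e1, e2]), Finset.sum_insert (by simp [hne]), Finset.sum_singleton, hs] at h3
  have h4 := hge o ho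
  have h5 := hge θ₁ h1
  have h6 := hge θ₂ h2
  have h7 : (Nat.card (centralizer ({t} : Set A)) : ℝ) ≤ 2 := by exact_mod_cast hC
  linarith

/-- A character not vanishing at `t` is linear if `|C(t)| ≤ 2`. -/
theorem linear_of_invol (ht : orderOf t = 2) (hC : Nat.card (centralizer ({t} : Set A)) ≤ 2) {θ : IrrCharacter A}
    (h1 : (θ : A → ℂ) t ≠ 0) : (θ : A → ℂ) 1 = 1 := by
  classical
  by_cases hn : (θ : A → ℂ) = 1
  · rw [hn, Pi.one_apply]
  have : Finite (IrrCharacter A) := finite_irr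
  have := Fintype.ofFinite (IrrCharacter A)
  have ht1 : t ≠ 1 := by
    rintro rfl
    rw [orderOf_one] at ht
    omega
  have hs := col_orth (G := A) t 1
  rw [if_neg fun h => ht1 (isConj_one_left.1 h)] at hs
  let o : IrrCharacter A := ⟨1, isIrr_one⟩
  have e1 : o ≠ θ := fun h => hn (by rw [← h])
  have hrest : ∀ θ' : IrrCharacter A, θ' ∈ univ → θ' ∉ ({o, θ} : Finset (IrrCharacter A)) →
      (θ' : A → ℂ) t * conj ((θ' : A → ℂ) 1) = 0 := by
    intro θ' _ hθ'
    rw [Finset.mem_insert, Finset.mem_singleton, not_or] at hθ'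
    by_cases hz : (θ' : A → ℂ) t = 0
    · rw [hz, zero_mul]
    · exfalso
      exact hθ'.2 (eq_of_invol ht hC hz h1 (fun h => hθ'.1 (Subtype.ext h)) hn)
  rw [← Finset.sum_subset (Finset.subset_univ ({o, θ} : Finset (IrrCharacter A))) hrest,
    Finset.sum_insert (by simp [e1]), Finset.sum_singleton] at hs
  obtain ⟨k, hk⟩ := exists_int_invol ht θ
  obtain ⟨n, hn0, hn1⟩ := isIrr_apply_one θ.2
  have ho : (o : A → ℂ) t * conj ((o : A → ℂ) 1) = 1 := by
    change (1 : A → ℂ) t * conj ((1 : A → ℂ) 1) = 1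
    simp
  rw [ho, hk, hn1, Complex.conj_natCast] at hs
  have h2 : (1 : ℤ) + k * n = 0 := by exact_mod_cast hs
  have h3 : (n : ℤ) ∣ 1 := ⟨-k, by linarith⟩
  have h4 : n = 1 := by
    have : n ∣ 1 := by exact_mod_cast h3
    exact Nat.dvd_one.1 this
  rw [hn1, h4, Nat.cast_one]

end lin

section final

variable {G : Type u} [Group G] [Finite G] [IsSimpleGroup G] {p : ℕ}

/-- **The degree modulo a prime `p ≥ 7`, `p ∥ |G|`, with an involution `t` such that `|C(z) ∩ C(t)| ≤ 2 p`.** -/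
theorem mod_of_invol (hp : p.Prime) (h7 : 7 ≤ p) (hsq : ¬ p ^ 2 ∣ Nat.card G) (hG : Nat.card G ≠ p) {z t : G}
    (hz : orderOf z = p) (ht : orderOf t = 2) (hzt : z * t = t * z)
    (hC : Nat.card (centralizer ({z} : Set G) ⊓ centralizer ({t} : Set G) : Subgroup G) ≤ 2 * p)
    {χ : IrrCharacter G} {x : G} (h : One χ x) (hx : ¬ p ∣ orderOf x)
    (h4 : 4 ≤ Nat.card (centralizer ({x} : Set G))) :
    charDegree (χ : G → ℂ) % p = 1 ∨ charDegree (χ : G → ℂ) % p = p - 1 := by
  classical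
  have hF : Fact p.Prime := ⟨hp⟩
  obtain ⟨P, hPz, hP⟩ := H849.OZ.exists_sylow hp hsq hz
  obtain ⟨K, hK⟩ := exists_isComp P hP
  have hzP : z ∈ (P : Subgroup G) := by rw [hPz]; exact mem_zpowers z
  have hz1 : z ≠ 1 := by
    rintro rfl
    rw [orderOf_one] at hz
    exact hp.one_lt.ne hz
  have hd : p ∣ Nat.card G := hz ▸ _root_.orderOf_dvd_natCard z
  have hw2 := H849.OZ.normalizer_ne hd hG (P := P) rfl
  -- `t` is in `K`
  have htK : t ∈ K := by
    rw [hK, ← Blocks.CyclicOrtho.centralizer_eq P hP hzP hz1, mem_centralizer_singleton_iff]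
    refine ⟨hzt.symm, ?_⟩
    rw [ht]
    intro h2
    have := Nat.le_of_dvd (by norm_num) h2
    omega
  let t' : K := ⟨t, htK⟩
  have ht' : orderOf t' = 2 := by rw [← Subgroup.orderOf_coe]; exact ht
  -- its centralizer in `K`
  have hC' : Nat.card (centralizer ({t'} : Set K)) ≤ 2 := by
    have h1 : Nat.card (P × centralizer ({t'} : Set K))
        ≤ Nat.card (centralizer ({z} : Set G) ⊓ centralizer ({t} : Set G) : Subgroup G) := by
      refine Nat.card_le_card_of_injective (fun a => ⟨(prodEquiv hK hP (a.1, (a.2 : K)) : G), ?_⟩) ?_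
      · rw [Subgroup.mem_inf]
        refine ⟨?_, ?_⟩
        · rw [Blocks.CyclicOrtho.centralizer_eq P hP hzP hz1]
          exact (prodEquiv hK hP (a.1, (a.2 : K))).2
        · rw [mem_centralizer_singleton_iff, coe_prodEquiv]
          have h2 : (a.1 : G) * t = t * (a.1 : G) := hK.comm a.1.2 htK
          have h3 : ((a.2 : K) : G) * t = t * ((a.2 : K) : G) :=
            congrArg Subtype.val (mem_centralizer_singleton_iff.1 a.2.2)
          change (a.1 : G) * ((a.2 : K) : G) * t = t * ((a.1 : G) * ((a.2 : K) : G))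
          rw [mul_assoc, h3, ← mul_assoc, h2, mul_assoc]
      · intro a b hab
        have h2 : (prodEquiv hK hP (a.1, (a.2 : K)) : G) = (prodEquiv hK hP (b.1, (b.2 : K)) : G) :=
          congrArg (fun w : (centralizer ({z} : Set G) ⊓ centralizer ({t} : Set G) : Subgroup G) => (w : G)) hab
        have h3 := (prodEquiv hK hP).injective (Subtype.ext h2)
        rw [Prod.mk.injEq] at h3
        exact Prod.ext h3.1 (Subtype.ext h3.2)
    rw [Nat.card_prod] at h1
    have hP' : Nat.card (P : Subgroup G) = p := hP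
    have h2 : p * Nat.card (centralizer ({t'} : Set K)) ≤ 2 * p := by
      rw [← hP']
      refine le_trans h1 ?_
      rw [hP']
      exact hC
    have h3 := hp.pos
    by_contra hcon
    push Not at hcon
    nlinarith
  -- the values at the `p`-singular elements
  obtain ⟨θ, ε, hε, hval, ⟨k, hk⟩, hc⟩ :=
    H849.OZ.five hK hP h hx rfl (fun e t het ht he => H849.OZ.arith h4 h7 hw2 het ht he)
  obtain ⟨u, hu, hu1⟩ := exists_ne_one hP
  have hsing : ∀ y : K, (χ : G → ℂ) (u * y) ≠ 0 := by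
    intro y h4
    have h5 : p ∣ orderOf (u * (y : G)) := by
      have := Fintype.ofFinite G
      exact H849.OZ.mem_Sg.1 (H849.OZ.Dg_sub hK hP (H849.OZ.mem_Dg.2 ⟨u, hu, hu1, y, y.2, rfl⟩))
    obtain ⟨a, ha⟩ := isConj_iff.1 (h.uniq _ h4)
    apply hx
    rwa [← ha, ← MulAut.conj_apply, MulEquiv.orderOf_eq] at h5
  have hdeg : ∀ θ' ∈ orb P K (θ : K → ℂ), (θ' : K → ℂ) 1 = (θ : K → ℂ) 1 := by
    intro θ' hθ'
    obtain ⟨n, hn, h1⟩ := mem_orb.1 hθ'
    rw [← h1, tw_apply hK _ hn]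
    refine congrArg (θ : K → ℂ) (Subtype.ext ?_)
    change n * ((1 : K) : G) * n⁻¹ = ((1 : K) : G)
    rw [OneMemClass.coe_one]
    group
  -- the orbit is linear
  have hθ1 : (θ : K → ℂ) 1 = 1 := by
    have h1 := hsing t'
    rw [hval u hu hu1 t'] at h1
    have h2 : ∑ θ' ∈ orb P K (θ : K → ℂ), (θ' : K → ℂ) t' ≠ 0 := fun h0 => h1 (by rw [h0, mul_zero])
    obtain ⟨θ', hθ', h3⟩ := Finset.exists_ne_zero_of_sum_ne_zero h2
    rw [← hdeg θ' hθ']
    exact linear_of_invol ht' hC' h3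
  have hnz : ∀ θ' ∈ orb P K (θ : K → ℂ), (θ' : K → ℂ) t' ≠ 0 := by
    intro θ' hθ' h0
    have h1 : (θ' : K → ℂ) 1 = 1 := (hdeg θ' hθ').trans hθ1
    obtain ⟨f, hf⟩ := Linear.exists_hom_of_isIrrCharacter θ'.2 h1
    rw [hf] at h0
    exact (f t').ne_zero h0
  have hmem : θ ∈ orb P K (θ : K → ℂ) := mem_orb.2 ⟨1, one_mem _, tw_one _⟩
  have horb : orb P K (θ : K → ℂ) = {θ} := by
    refine Finset.eq_singleton_iff_unique_mem.2 ⟨hmem, fun θ' hθ' => ?_⟩
    obtain ⟨n, hn, h1⟩ := mem_orb.1 hθ'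
    by_cases hn1 : (θ : K → ℂ) = 1
    · apply Subtype.ext
      rw [← h1]
      funext y
      rw [tw_apply hK _ hn, hn1]
      rfl
    · refine eq_of_invol ht' hC' (hnz θ' hθ') (hnz θ hmem) (fun h0 => hn1 ?_) hn1
      funext y
      have h2 : n⁻¹ ∈ normalizer ((P : Subgroup G) : Set G) := inv_mem hn
      have h3 := congrFun h1 ⟨n⁻¹ * y * n⁻¹⁻¹, conj_mem hK h2 y.2⟩
      rw [tw_apply hK _ hn, h0] at h3
      rw [Pi.one_apply] at h3 ⊢
      rw [← h3]
      refine congrArg (θ : K → ℂ) (Subtype.ext ?_)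
      change (y : G) = n * (n⁻¹ * y * n⁻¹⁻¹) * n⁻¹
      group
  rw [horb, Finset.sum_singleton, hθ1, mul_one] at hk
  have h7' : ((charDegree (χ : G → ℂ) : ℤ)) = ε + p * k := by
    have h8 := charDegree_irr χ
    rw [hk] at h8
    exact_mod_cast h8
  exact H849.OZ.mod_of hp.one_lt hε h7'

end final

end Cfsg.Agent.H593.OZ
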