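import Mathlib

/-!
# Two commuting pairs of 3-transpositions (helper593, for S4842)

`card_two_tri` : if `l, k` and `u, v` are pairs of 3-transpositions of `C` commuting with each other,
`18 * |C ∩ C(l u) ∩ G'| ≤ |C|`, `G'` a subgroup containing `l k`, `u v` and not `l`.
-/

set_option autoImplicit false

namespace Cfsg.Agent.H593.OZ

open Subgroup

universe u

theorem tri_facts {G : Type u} [Group G] {a b : G} (aa : a * a = 1) (bb : b * b = 1) (ab : a * b * a = b * a * b)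
    (hn : a * b ≠ b * a) : orderOf (a * b) = 3 ∧ a * (a * b) * a⁻¹ = (a * b)⁻¹ := by
  have ia : a⁻¹ = a := inv_eq_of_mul_eq_one_right aa
  have ib : b⁻¹ = b := inv_eq_of_mul_eq_one_right bb
  constructor
  · have : Fact (Nat.Prime 3) := ⟨Nat.prime_three⟩
    refine orderOf_eq_prime ?_ ?_
    · calc (a * b) ^ 3 = (a * b * a) * (b * a * b) := by rw [pow_succ, pow_two]; group
        _ = (b * a * b) * (b * a * b) := by rw [ab]
        _ = b * a * (b * b) * a * b := by group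
        _ = b * (a * a) * b := by rw [bb]; group
        _ = 1 := by rw [aa, mul_one, bb]
    · intro h
      apply hn
      have h1 : b = a⁻¹ := (inv_eq_of_mul_eq_one_right h).symm
      rw [h1, mul_inv_cancel, inv_mul_cancel]
  · rw [mul_inv_rev, ia, ib]
    calc a * (a * b) * a = (a * a) * b * a := by group
      _ = b * a := by rw [aa, one_mul]

variable {G : Type u} [Group G] {a b l t : G}

/-- the elements `a ^ i * b ^ j` are different -/
theorem eq_of_pows (ha : orderOf a = 3) (hb : orderOf b = 3) (la : l * a * l⁻¹ = a⁻¹)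
    (lb : Commute l b) {m n : ℤ} (h : a ^ m * b ^ n = 1) : (3 : ℤ) ∣ m ∧ (3 : ℤ) ∣ n := by
  have h1 : a ^ m = b ^ (-n) := by rw [zpow_neg]; exact eq_inv_of_mul_eq_one_left h
  have h2 : l * a ^ m * l⁻¹ = a ^ (-m) := by rw [← conj_zpow, la, inv_zpow, zpow_neg]
  have h3 : l * b ^ (-n) * l⁻¹ = b ^ (-n) := by
    rw [(lb.zpow_right (-n)).eq, mul_inv_cancel_right]
  rw [← h1, h2] at h3
  have h4 : a ^ (m + m) = 1 := by
    rw [zpow_add]
    nth_rewrite 2 [← h3]
    rw [zpow_neg, mul_inv_cancel]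
  have h5 : (3 : ℤ) ∣ m + m := by
    have := orderOf_dvd_iff_zpow_eq_one.2 h4
    rwa [ha] at this
  have h6 : (3 : ℤ) ∣ m := by omega
  refine ⟨h6, ?_⟩
  have h7 : a ^ m = 1 := orderOf_dvd_iff_zpow_eq_one.1 (by rw [ha]; exact_mod_cast h6)
  rw [h7, one_mul] at h
  have := orderOf_dvd_iff_zpow_eq_one.2 h
  rwa [hb] at this

/-- an element commuting with `t` and of the form `a ^ m * b ^ n` is trivial -/
theorem dvd_of_comm (ha : orderOf a = 3) (hb : orderOf b = 3) (hab : Commute a b) (la : l * a * l⁻¹ = a⁻¹)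
    (lb : Commute l b) (ta : t * a * t⁻¹ = a⁻¹) (tb : t * b * t⁻¹ = b⁻¹) {m n : ℤ}
    (h : t * (a ^ m * b ^ n) = a ^ m * b ^ n * t) : (3 : ℤ) ∣ m ∧ (3 : ℤ) ∣ n := by
  have h1 : t * (a ^ m * b ^ n) * t⁻¹ = a ^ (-m) * b ^ (-n) := by
    calc t * (a ^ m * b ^ n) * t⁻¹ = (t * a ^ m * t⁻¹) * (t * b ^ n * t⁻¹) := by group
      _ = a ^ (-m) * b ^ (-n) := by
        rw [← conj_zpow, ← conj_zpow, ta, tb, inv_zpow, inv_zpow, zpow_neg, zpow_neg]
  rw [h, mul_inv_cancel_right] at h1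
  have hc : ∀ i j : ℤ, a ^ i * b ^ j = b ^ j * a ^ i := fun i j => ((hab.zpow_left i).zpow_right j).eq
  have h2 : a ^ (m + m) * b ^ (n + n) = 1 := by
    calc a ^ (m + m) * b ^ (n + n) = a ^ m * (a ^ m * b ^ n) * b ^ n := by rw [zpow_add, zpow_add]; group
      _ = a ^ m * (a ^ (-m) * b ^ (-n)) * b ^ n := by rw [h1]
      _ = 1 := by group
  have h3 := eq_of_pows ha hb la lb h2
  omega

/-- **Two commuting pairs of 3-transpositions.** -/
theorem card_two_tri [Finite G] {C G' : Subgroup G} {l k u v : G} (ll : l * l = 1) (kk : k * k = 1) (uu : u * u = 1)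
    (vv : v * v = 1) (lk : l * k * l = k * l * k) (uv : u * v * u = v * u * v) (lkn : l * k ≠ k * l)
    (uvn : u * v ≠ v * u) (lu : l * u = u * l) (lv : l * v = v * l) (ku : k * u = u * k) (kv : k * v = v * k)
    (hl : l ∈ C) (hk : k ∈ C) (hu : u ∈ C) (hv : v ∈ C) (hlG : l ∉ G') (hlk : l * k ∈ G') (huv : u * v ∈ G') :
    18 * Nat.card (C ⊓ centralizer ({l * u} : Set G) ⊓ G' : Subgroup G) ≤ Nat.card C := by
  classical
  obtain ⟨ha, la⟩ := tri_facts ll kk lk lkn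
  obtain ⟨hb, ub⟩ := tri_facts uu vv uv uvn
  set a := l * k with hadef
  set b := u * v with hbdef
  set t := l * u with htdef
  set M := C ⊓ centralizer ({t} : Set G) ⊓ G' with hM
  have cl : Commute l b := (show Commute l u from lu).mul_right (show Commute l v from lv)
  have ck : Commute k b := (show Commute k u from ku).mul_right (show Commute k v from kv)
  have cab : Commute a b := cl.mul_left ck
  have cua : Commute u a := (show Commute u l from lu.symm).mul_right (show Commute u k from ku.symm)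
  have ta : t * a * t⁻¹ = a⁻¹ := by
    calc t * a * t⁻¹ = l * (u * a * u⁻¹) * l⁻¹ := by rw [htdef]; group
      _ = a⁻¹ := by rw [cua.eq, mul_inv_cancel_right, la]
  have tb : t * b * t⁻¹ = b⁻¹ := by
    calc t * b * t⁻¹ = l * (u * b * u⁻¹) * l⁻¹ := by rw [htdef]; group
      _ = l * b⁻¹ * l⁻¹ := by rw [ub]
      _ = b⁻¹ := by rw [(cl.inv_right).eq, mul_inv_cancel_right]
  have clt : Commute l t := (Commute.refl l).mul_right (show Commute l u from lu)
  have haC : a ∈ C := mul_mem hl hk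
  have hbC : b ∈ C := mul_mem hu hv
  -- the map
  let f : (Fin 3 × Fin 3 × Fin 2) × M → C := fun q =>
    ⟨a ^ (q.1.1 : ℕ) * b ^ (q.1.2.1 : ℕ) * l ^ (q.1.2.2 : ℕ) * (q.2 : G), by
      refine mul_mem (mul_mem (mul_mem (pow_mem haC _) (pow_mem hbC _)) (pow_mem hl _)) ?_
      exact (mem_inf.1 (mem_inf.1 q.2.2).1).1⟩
  have hinj : Function.Injective f := by
    rintro ⟨⟨i, j, e⟩, y⟩ ⟨⟨i', j', e'⟩, y'⟩ h
    have h0 : a ^ (i : ℕ) * b ^ (j : ℕ) * l ^ (e : ℕ) * (y : G) = a ^ (i' : ℕ) * b ^ (j' : ℕ) * l ^ (e' : ℕ) * (y' : G) :=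
      congrArg (fun w : C => (w : G)) h
    have hyG : (y : G) ∈ G' := (mem_inf.1 y.2).2
    have hyG' : (y' : G) ∈ G' := (mem_inf.1 y'.2).2
    have hyt : Commute (y : G) t := mem_centralizer_singleton_iff.1 (mem_inf.1 (mem_inf.1 y.2).1).2
    have hyt' : Commute (y' : G) t := mem_centralizer_singleton_iff.1 (mem_inf.1 (mem_inf.1 y'.2).1).2
    set A := a ^ (i : ℕ) * b ^ (j : ℕ) with hA
    set A' := a ^ (i' : ℕ) * b ^ (j' : ℕ) with hA'
    have hAG : A ∈ G' := mul_mem (pow_mem hlk _) (pow_mem huv _)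
    have hAG' : A' ∈ G' := mul_mem (pow_mem hlk _) (pow_mem huv _)
    -- the parity
    have he : e = e' := by
      have key : ∀ {A A' y y' : G}, A ∈ G' → A' ∈ G' → y ∈ G' → y' ∈ G' → A * l ^ 0 * y ≠ A' * l ^ 1 * y' := by
        intro A A' y y' h1 h2 h3 h4 h5
        apply hlG
        have h6 : l = A'⁻¹ * (A * y) * y'⁻¹ := by
          rw [pow_zero, mul_one, pow_one] at h5
          rw [h5]
          group
        rw [h6]
        exact mul_mem (mul_mem (inv_mem h2) (mul_mem h1 h3)) (inv_mem h4)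
      have e2 : ∀ e : Fin 2, (e : ℕ) = 0 ∨ (e : ℕ) = 1 := fun e => by omega
      rcases e2 e with h1 | h1 <;> rcases e2 e' with h2 | h2
      · exact Fin.ext (h1.trans h2.symm)
      · exfalso
        rw [h1, h2] at h0
        exact key hAG hAG' hyG hyG' h0
      · exfalso
        rw [h1, h2] at h0
        exact key hAG' hAG hyG' hyG h0.symm
      · exact Fin.ext (h1.trans h2.symm)
    subst he
    -- the difference
    have hcb : ∀ m n : ℤ, a ^ m * b ^ n = b ^ n * a ^ m := fun m n => ((cab.zpow_left m).zpow_right n).eq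
    have hdiff : A'⁻¹ * A = a ^ ((i : ℤ) - (i' : ℤ)) * b ^ ((j : ℤ) - (j' : ℤ)) := by
      rw [hA, hA', mul_inv_rev, zpow_sub, zpow_sub, zpow_natCast, zpow_natCast, zpow_natCast, zpow_natCast]
      have e1 : (b ^ (j' : ℕ))⁻¹ * (a ^ (i' : ℕ))⁻¹ = (a ^ (i' : ℕ))⁻¹ * (b ^ (j' : ℕ))⁻¹ :=
        ((cab.pow_left _).pow_right _).inv_inv.eq.symm
      have e2 : (b ^ (j' : ℕ))⁻¹ * a ^ (i : ℕ) = a ^ (i : ℕ) * (b ^ (j' : ℕ))⁻¹ :=
        ((cab.pow_left _).pow_right _).inv_right.eq.symm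
      have e3 : (a ^ (i' : ℕ))⁻¹ * a ^ (i : ℕ) = a ^ (i : ℕ) * (a ^ (i' : ℕ))⁻¹ :=
        (((Commute.refl a).pow_left _).pow_right _).inv_right.eq.symm
      have e4 : (b ^ (j' : ℕ))⁻¹ * b ^ (j : ℕ) = b ^ (j : ℕ) * (b ^ (j' : ℕ))⁻¹ :=
        (((Commute.refl b).pow_left _).pow_right _).inv_right.eq.symm
      calc (b ^ (j' : ℕ))⁻¹ * (a ^ (i' : ℕ))⁻¹ * (a ^ (i : ℕ) * b ^ (j : ℕ))
          = (a ^ (i' : ℕ))⁻¹ * (b ^ (j' : ℕ))⁻¹ * (a ^ (i : ℕ) * b ^ (j : ℕ)) := by rw [e1]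
        _ = (a ^ (i' : ℕ))⁻¹ * ((b ^ (j' : ℕ))⁻¹ * a ^ (i : ℕ)) * b ^ (j : ℕ) := by group
        _ = (a ^ (i' : ℕ))⁻¹ * (a ^ (i : ℕ) * (b ^ (j' : ℕ))⁻¹) * b ^ (j : ℕ) := by rw [e2]
        _ = ((a ^ (i' : ℕ))⁻¹ * a ^ (i : ℕ)) * ((b ^ (j' : ℕ))⁻¹ * b ^ (j : ℕ)) := by group
        _ = _ := by rw [e3, e4]
    have hd2 : A'⁻¹ * A = l ^ (e : ℕ) * ((y' : G) * (y : G)⁻¹) * (l ^ (e : ℕ))⁻¹ := by
      have h1 : A = A' * l ^ (e : ℕ) * (y' : G) * (y : G)⁻¹ * (l ^ (e : ℕ))⁻¹ := by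
        rw [← h0]
        group
      rw [h1]
      group
    have hct : Commute (A'⁻¹ * A) t := by
      rw [hd2]
      exact (((clt.pow_left _).mul_left (hyt'.mul_left hyt.inv_left)).mul_left (clt.pow_left _).inv_left)
    rw [hdiff] at hct
    have h3 := dvd_of_comm ha hb cab la cl ta tb hct.eq.symm
    have hi := i.2
    have hi' := i'.2
    have hj := j.2
    have hj' := j'.2
    have h4 : (i : ℕ) = i' := by omega
    have h5 : (j : ℕ) = j' := by omega
    have h6 : i = i' := Fin.ext h4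
    have h7 : j = j' := Fin.ext h5
    subst h6
    subst h7
    have h8 : (y : G) = y' := mul_left_cancel h0
    rw [Subtype.ext h8]
  have hcard := Nat.card_le_card_of_injective f hinj
  rw [Nat.card_prod, Nat.card_prod, Nat.card_prod, Nat.card_eq_fintype_card, Nat.card_eq_fintype_card,
    Fintype.card_fin, Fintype.card_fin] at hcard
  exact hcard

end Cfsg.Agent.H593.OZ
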